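import Cfsg.Agent.Lib.Dade.Es
import Mathlib.Analysis.SpecialFunctions.Pow.Complex
import Mathlib.RingTheory.Idempotents

/-! Intertwiners for faithful representations of extraspecial `2`-groups. -/

set_option autoImplicit false

namespace Cfsg.Lib.Dade

open Subgroup

variable {E : Type*} [Group E] {z : E} {𝒜 : Type*} [Ring 𝒜] [Algebra ℂ 𝒜] {ρ : E →* 𝒜} {F : Subgroup E}

local notation "𝐂(" S ")" => centralizer ((S : Subgroup _) : Set _)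

/-- The span of the image of a subgroup. -/
def Sp (ρ : E →* 𝒜) (F : Subgroup E) : Submodule ℂ 𝒜 := Submodule.span ℂ (ρ '' F)

theorem sp_of {e : E} (he : e ∈ F) : ρ e ∈ Sp ρ F := Submodule.subset_span ⟨e, he, rfl⟩

theorem sp_mem {u v a : 𝒜} {N : Submodule ℂ 𝒜} (ha : a ∈ Sp ρ F) (h : ∀ e ∈ F, u * ρ e * v ∈ N) : u * a * v ∈ N := by
  induction ha using Submodule.span_induction with
  | mem x hx => obtain ⟨e, he, rfl⟩ := hx; exact h e he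
  | zero => simp
  | add x y _ _ hx hy => rw [mul_add, add_mul]; exact N.add_mem hx hy
  | smul c x _ hx => rw [mul_smul_comm, smul_mul_assoc]; exact N.smul_mem c hx

theorem sp_eq {u v u' v' a : 𝒜} (ha : a ∈ Sp ρ F) (h : ∀ e ∈ F, u * ρ e * v = u' * ρ e * v') : u * a * v = u' * a * v' := by
  induction ha using Submodule.span_induction with
  | mem x hx => obtain ⟨e, he, rfl⟩ := hx; exact h e he
  | zero => simp
  | add x y _ _ hx hy => simp only [mul_add, add_mul, hx, hy]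
  | smul c x _ hx => simp only [mul_smul_comm, smul_mul_assoc, hx]

theorem sp_mul {a b : 𝒜} (ha : a ∈ Sp ρ F) (hb : b ∈ Sp ρ F) : a * b ∈ Sp ρ F := by
  simpa using sp_mem (u := 1) (v := b) ha fun e he => by
    simpa using sp_mem (u := ρ e) (v := 1) hb fun f hf => by
      rw [mul_one, ← map_mul]; exact sp_of (mul_mem he hf)

theorem sp_one : (1 : 𝒜) ∈ Sp ρ F := map_one ρ ▸ sp_of F.one_mem

theorem sp_pow {a : 𝒜} (ha : a ∈ Sp ρ F) (n : ℕ) : a ^ n ∈ Sp ρ F := by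
  induction n with
  | zero => rw [pow_zero]; exact sp_one
  | succ n ih => rw [pow_succ]; exact sp_mul ih ha

theorem sp_top {a : 𝒜} (ha : a ∈ Sp ρ F) : a ∈ Sp ρ ⊤ := Submodule.span_mono (Set.image_mono le_top) ha

theorem sp_comm {F' : Subgroup E} (h : F' ≤ 𝐂(F)) {a b : 𝒜} (ha : a ∈ Sp ρ F) (hb : b ∈ Sp ρ F') : a * b = b * a := by
  simpa using sp_eq (u := 1) (v := b) (u' := b) (v' := 1) ha fun e he => by
    simpa using sp_eq (u := ρ e) (v := 1) (u' := 1) (v' := ρ e) hb fun f hf => by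
      rw [mul_one, one_mul, ← map_mul, ← map_mul, h hf e he]

/-- `a` induces `σ` on `F`. -/
structure Gd (ρ : E →* 𝒜) (F : Subgroup E) (σ : MulAut E) (a : 𝒜) : Prop where
  mem : a ∈ Sp ρ F
  itw : ∀ e ∈ F, a * ρ e = ρ (σ e) * a

theorem Gd.mul {σ τ : MulAut E} {a b : 𝒜} (ha : Gd ρ ⊤ σ a) (hb : Gd ρ ⊤ τ b) : Gd ρ ⊤ (σ * τ) (a * b) :=
  ⟨sp_mul ha.mem hb.mem, fun e he => by rw [mul_assoc, hb.itw e he, ← mul_assoc, ha.itw _ trivial, mul_assoc]; rfl⟩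

theorem Gd.pow {σ : MulAut E} {a : 𝒜} (ha : Gd ρ ⊤ σ a) (n : ℕ) : Gd ρ ⊤ (σ ^ n) (a ^ n) := by
  induction n with
  | zero => exact ⟨by simpa using sp_one, by simp⟩
  | succ n ih => rw [pow_succ, pow_succ]; exact ih.mul ha

theorem Gd.smul {σ : MulAut E} {a : 𝒜} (ha : Gd ρ F σ a) (c : ℂ) : Gd ρ F σ (c • a) :=
  ⟨Submodule.smul_mem _ c ha.mem, fun e he => by rw [smul_mul_assoc, ha.itw e he, mul_smul_comm]⟩

variable {S : Type*} [Group S] {ψ : S →* MulAut E}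

/-- The representation `ρ` of `F` extends to `F ⋊ S`. -/
def Spl (ρ : E →* 𝒜) (F : Subgroup E) (ψ : S →* MulAut E) : Prop := ∃ T : S →* 𝒜, ∀ s, Gd ρ F (ψ s) (T s)

theorem Spl.of_res {hF : ∀ s, ∀ x ∈ F, ψ s x ∈ F} (h : Spl (ρ.comp F.subtype) ⊤ (res ψ F hF)) : Spl ρ F ψ := by
  obtain ⟨T, hT⟩ := h
  refine ⟨T, fun s => ⟨Submodule.span_mono ?_ (hT s).mem, fun e he => (hT s).itw ⟨e, he⟩ trivial⟩⟩
  rintro _ ⟨x, -, rfl⟩
  exact ⟨x, x.2, rfl⟩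

theorem gd_prod {F' : Subgroup E} (h : F' ≤ 𝐂(F)) (hs : ∀ e, ∃ f ∈ F, ∃ f' ∈ F', e = f * f') {σ : MulAut E}
    (hF' : ∀ x ∈ F', σ x ∈ F') {a b : 𝒜} (ha : Gd ρ F σ a) (hb : Gd ρ F' σ b) : Gd ρ ⊤ σ (a * b) := by
  refine ⟨sp_mul (sp_top ha.mem) (sp_top hb.mem), fun e _ => ?_⟩
  obtain ⟨f, hf, f', hf', rfl⟩ := hs e
  rw [map_mul, map_mul, map_mul, mul_assoc, ← mul_assoc b, ← sp_comm h (sp_of hf) hb.mem, mul_assoc, hb.itw _ hf', ← mul_assoc,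
    ha.itw _ hf, mul_assoc, ← mul_assoc a, sp_comm h ha.mem (sp_of (hF' _ hf'))]
  simp only [mul_assoc]

theorem Spl.prod {F' : Subgroup E} (h : F' ≤ 𝐂(F)) (hs : ∀ e, ∃ f ∈ F, ∃ f' ∈ F', e = f * f')
    (hF' : ∀ s, ∀ x ∈ F', ψ s x ∈ F') (h1 : Spl ρ F ψ) (h2 : Spl ρ F' ψ) : Spl ρ ⊤ ψ := by
  obtain ⟨T, hT⟩ := h1
  obtain ⟨T', hT'⟩ := h2
  refine ⟨⟨⟨fun s => T s * T' s, by simp⟩, fun s t => ?_⟩, fun s => gd_prod h hs (hF' s) (hT s) (hT' s)⟩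
  simp only [map_mul]
  rw [mul_assoc, ← mul_assoc (T t), sp_comm h (hT t).mem (hT' s).mem]
  simp only [mul_assoc]

namespace ES

variable (h : ES z) (hz : ρ z = -1)
include h hz

omit [Algebra ℂ 𝒜] in
theorem rho_conj (e x : E) : ρ (e * x * e⁻¹) = bt e x • ρ x := by
  by_cases c : e * x = x * e
  · rw [bt_pos c, c, mul_inv_cancel_right, one_smul]
  · rw [bt_neg c, h.dich c, mul_assoc, mul_inv_cancel_right, map_mul, hz]; simp

omit [Algebra ℂ 𝒜] in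
open Classical in
theorem av [Fintype E] (x : E) : ∑ e, ρ (e * x * e⁻¹) = if x ∈ center E then (Nat.card E : 𝒜) * ρ x else 0 := by
  simp only [h.rho_conj hz, ← Finset.sum_smul, h.sum_bt']
  split_ifs <;> simp

variable [Finite E]

theorem schur {a : 𝒜} (ha : Gd ρ ⊤ 1 a) : ∃ c : ℂ, a = c • 1 := by
  classical
  have := Fintype.ofFinite E
  have h1 : ∀ a ∈ Sp ρ ⊤, ∑ e, ρ e * a * ρ e⁻¹ ∈ Submodule.span ℂ {(1 : 𝒜)} := fun a ha => by
    induction ha using Submodule.span_induction with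
    | mem x hx =>
      obtain ⟨x, -, rfl⟩ := hx
      simp only [← map_mul, h.av hz]
      split_ifs with c
      · refine Submodule.mem_span_singleton.2 ?_
        rcases (h.cen x).1 c with rfl | rfl
        · exact ⟨Nat.card E, by simp [Nat.cast_smul_eq_nsmul]⟩
        · exact ⟨-Nat.card E, by simp [Nat.cast_smul_eq_nsmul, hz]⟩
      · exact Submodule.zero_mem _
    | zero => simp
    | add x y _ _ hx hy => simp only [mul_add, add_mul, Finset.sum_add_distrib]; exact add_mem hx hy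
    | smul c x _ hx => simp only [mul_smul_comm, smul_mul_assoc, ← Finset.smul_sum]; exact Submodule.smul_mem _ c hx
  obtain ⟨c, hc⟩ := Submodule.mem_span_singleton.1 (h1 a ha.mem)
  rw [Finset.sum_congr rfl fun e _ => show ρ e * a * ρ e⁻¹ = a by
    rw [← show a * ρ e = ρ e * a from ha.itw e trivial, mul_assoc, ← map_mul, mul_inv_cancel, map_one, mul_one],
    Finset.sum_const, Finset.card_univ, ← Nat.cast_smul_eq_nsmul ℂ] at hc
  refine ⟨(Fintype.card E : ℂ)⁻¹ * c, ?_⟩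
  rw [mul_smul, hc, inv_smul_smul₀ (Nat.cast_ne_zero.2 Fintype.card_ne_zero)]

theorem itw (σ : MulAut E) : ∃ X : 𝒜ˣ, Gd ρ ⊤ σ X ∧ Gd ρ ⊤ σ⁻¹ (X⁻¹ : 𝒜ˣ) := by
  classical
  have := Fintype.ofFinite E
  rcases subsingleton_or_nontrivial 𝒜 with _ | _
  · exact ⟨1, ⟨sp_one, fun _ _ => Subsingleton.elim _ _⟩, ⟨by simpa using sp_one, fun _ _ => Subsingleton.elim _ _⟩⟩
  let X : E → 𝒜 := fun g => ∑ e, ρ (σ e * g * e⁻¹)
  let Y : E → 𝒜 := fun g => ∑ e, ρ (e * g⁻¹ * (σ e)⁻¹)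
  have hX : ∀ g, Gd ρ ⊤ σ (X g) := fun g => ⟨Submodule.sum_mem _ fun _ _ => sp_of trivial, fun f _ => by
    simp only [X, Finset.sum_mul, Finset.mul_sum, ← map_mul]
    exact (Fintype.sum_equiv (Equiv.mulLeft f) _ _ fun e => by simp [mul_assoc]).symm⟩
  have hY : ∀ g, Gd ρ ⊤ σ⁻¹ (Y g) := fun g => ⟨Submodule.sum_mem _ fun _ _ => sp_of trivial, fun f _ => by
    simp only [Y, Finset.sum_mul, Finset.mul_sum, ← map_mul]
    exact (Fintype.sum_equiv (Equiv.mulLeft (σ⁻¹ f)) _ _ fun e => by simp [mul_assoc]).symm⟩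
  obtain ⟨g, hg⟩ : ∃ g, Y g * X g ≠ 0 := by
    by_contra c
    push Not at c
    have h1 : ∑ g, Y g⁻¹ * X g⁻¹ = 0 := Finset.sum_eq_zero fun g _ => c _
    have h2 : ∀ e e' : E, ∑ g, ρ (e * g⁻¹⁻¹ * (σ e)⁻¹) * ρ (σ e' * g⁻¹ * e'⁻¹) =
        ((if e⁻¹ * e' ∈ center E then Nat.card E else 0 : ℕ) : 𝒜) := fun e e' => by
      have : ∀ g, ρ (e * g⁻¹⁻¹ * (σ e)⁻¹) * ρ (σ e' * g⁻¹ * e'⁻¹) = ρ e * ρ (g * σ (e⁻¹ * e') * g⁻¹) * ρ e'⁻¹ := fun g => by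
        simp only [← map_mul ρ]; congr 1; simp [mul_assoc]
      simp only [this, ← Finset.sum_mul, ← Finset.mul_sum, h.av hz]
      by_cases c : e⁻¹ * e' ∈ center E
      · rw [h.fc σ c, if_pos c, if_pos c, ← mul_assoc, ← Nat.cast_comm, mul_assoc, mul_assoc, ← map_mul, ← map_mul]
        simp
      · rw [if_neg c, if_neg fun d => c (by rwa [σ.injective (h.fc σ d)] at d)]; simp
    simp only [X, Y, Finset.sum_mul_sum] at h1
    rw [Finset.sum_comm] at h1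
    simp only [Finset.sum_comm (s := Finset.univ (α := E)) (f := fun g e' => ρ (_ * g⁻¹⁻¹ * _) * ρ (σ e' * g⁻¹ * e'⁻¹)), h2,
      ← Nat.cast_sum] at h1
    have := charZero_of_injective_algebraMap (algebraMap ℂ 𝒜).injective
    have h3 := Finset.sum_eq_zero_iff.1 (Finset.sum_eq_zero_iff.1 (Nat.cast_eq_zero.1 h1) 1 (Finset.mem_univ _)) 1
      (Finset.mem_univ _)
    rw [inv_mul_cancel, if_pos (one_mem _)] at h3
    exact Nat.card_pos.ne' h3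
  obtain ⟨c, hc⟩ := h.schur hz (inv_mul_cancel σ ▸ (hY g).mul (hX g))
  obtain ⟨d, hd⟩ := h.schur hz (mul_inv_cancel σ ▸ (hX g).mul (hY g))
  have c0 : c ≠ 0 := by rintro rfl; exact hg (by simpa using hc)
  obtain rfl : c = d := by
    have : c • X g = d • X g := by rw [← mul_one (X g), ← mul_smul_comm, ← hc, ← mul_assoc, hd]; simp
    exact smul_left_injective ℂ (fun e => hg (by rw [e, mul_zero])) this
  exact ⟨⟨X g, c⁻¹ • Y g, by rw [mul_smul_comm, hd, inv_smul_smul₀ c0], by rw [smul_mul_assoc, hc, inv_smul_smul₀ c0]⟩,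
    hX g, (hY g).smul _⟩

theorem spl_cyc [IsCyclic ψ.range] : Spl ρ ⊤ ψ := by
  rcases subsingleton_or_nontrivial 𝒜 with _ | _
  · exact ⟨1, fun _ => ⟨sp_one, fun _ _ => Subsingleton.elim _ _⟩⟩
  obtain ⟨σ, hσ⟩ := IsCyclic.exists_generator (α := ψ.range)
  obtain ⟨X, hX, -⟩ := h.itw hz σ.1
  obtain ⟨c, hc⟩ := h.schur hz ((show σ.1 ^ orderOf σ = 1 from congrArg Subtype.val (pow_orderOf_eq_one σ)) ▸ hX.pow (orderOf σ))
  have c0 : c ≠ 0 := by rintro rfl; exact (X ^ orderOf σ).ne_zero (by simpa using hc)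
  have e := Complex.cpow_nat_inv_pow c⁻¹ (orderOf_pos σ).ne'
  set μ := c⁻¹ ^ ((orderOf σ : ℂ))⁻¹
  have e' : (μ • (X : 𝒜)) ^ orderOf σ = 1 := by rw [smul_pow, e, hc, inv_smul_smul₀ c0]
  let U := Units.ofPowEqOne _ _ e' (orderOf_pos σ).ne'
  let f := monoidHomOfForallMemZpowers hσ (g' := U) (orderOf_dvd_of_pow_eq_one (Units.ext e'))
  refine ⟨((Units.coeHom 𝒜).comp f).comp ψ.rangeRestrict, fun s => ?_⟩
  obtain ⟨i, hi⟩ := mem_powers_iff_mem_zpowers.2 (hσ (ψ.rangeRestrict s))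
  change Gd ρ ⊤ (ψ.rangeRestrict s).1 (f (ψ.rangeRestrict s))
  rw [← hi, map_pow, monoidHomOfForallMemZpowers_apply_gen]
  exact (hX.smul μ).pow i

theorem spl_two {S₁ : Subgroup S} [hn : S₁.Normal] {s : S} (hs : ∀ x, x ∉ S₁ ↔ x * s⁻¹ ∈ S₁) (T : S₁ →* 𝒜)
    (hT : ∀ x, Gd ρ ⊤ (ψ x.1) (T x)) {X : 𝒜ˣ} (hX : Gd ρ ⊤ (ψ s) X)
    (hc : ∀ x : S₁, X * T x = T (MulAut.conjNormal s x) * X) : Spl ρ ⊤ ψ := by
  classical
  rcases subsingleton_or_nontrivial 𝒜 with _ | _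
  · exact ⟨1, fun _ => ⟨sp_one, fun _ _ => Subsingleton.elim _ _⟩⟩
  have s1 : s ∉ S₁ := (hs s).2 (by simp)
  have s2 : s * s ∈ S₁ := by_contra fun c => s1 (by simpa using (hs _).1 c)
  obtain ⟨c, e⟩ := h.schur hz ((show ψ s * ψ s * ψ (s * s)⁻¹ = 1 by rw [← map_mul, ← map_mul]; simp) ▸
    (hX.mul hX).mul (hT (⟨_, s2⟩ : S₁)⁻¹))
  have e1 : (X : 𝒜) * X = c • T ⟨_, s2⟩ := by
    rw [← one_mul (T _), ← smul_mul_assoc, ← e, mul_assoc, ← map_mul, inv_mul_cancel, map_one, mul_one]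
  have c0 : c ≠ 0 := by rintro rfl; exact (X * X).ne_zero (by simpa using e1)
  have e2 := Complex.cpow_nat_inv_pow c⁻¹ two_ne_zero
  set μ := c⁻¹ ^ (((2 : ℕ) : ℂ))⁻¹
  obtain ⟨W, hW⟩ : ∃ W, W = μ • (X : 𝒜) := ⟨_, rfl⟩
  have w1 : W * W = T ⟨_, s2⟩ := by rw [hW, smul_mul_smul, ← pow_two, e2, e1, inv_smul_smul₀ c0]
  have w2 : ∀ x : S₁, W * T x = T (MulAut.conjNormal s x) * W := fun x => by rw [hW, smul_mul_assoc, hc, mul_smul_comm]
  let t : S → 𝒜 := fun x => if hx : x ∈ S₁ then T ⟨x, hx⟩ else T ⟨_, (hs x).1 hx⟩ * W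
  have t1 : ∀ x (hx : x ∈ S₁), t x = T ⟨x, hx⟩ := fun x hx => dif_pos hx
  have t2 : ∀ x (hx : x ∉ S₁), t x = T ⟨_, (hs x).1 hx⟩ * W := fun x hx => dif_neg hx
  refine ⟨⟨⟨t, (t1 1 S₁.one_mem).trans (map_one T)⟩, fun x y => ?_⟩, fun x => ?_⟩
  · change t (x * y) = t x * t y
    by_cases hx : x ∈ S₁ <;> by_cases hy : y ∈ S₁
    · rw [t1 _ hx, t1 _ hy, t1 _ (mul_mem hx hy), ← map_mul]; rfl
    · rw [t1 _ hx, t2 _ hy, t2 _ (mt (mul_mem_cancel_left hx).1 hy), ← mul_assoc, ← map_mul]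
      congr 2; exact Subtype.ext (mul_assoc _ _ _)
    · rw [t2 _ hx, t1 _ hy, t2 _ (mt (mul_mem_cancel_right hy).1 hx), mul_assoc (T _), w2, ← mul_assoc, ← map_mul]
      congr 2; exact Subtype.ext (by simp [mul_assoc])
    · have m : x * y ∈ S₁ := by
        convert mul_mem (mul_mem ((hs x).1 hx) (hn.conj_mem _ ((hs y).1 hy) s)) s2 using 1; group
      rw [t2 _ hx, t2 _ hy, t1 _ m, mul_assoc, ← mul_assoc W, w2, mul_assoc, w1, ← map_mul, ← map_mul]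
      congr 1; exact Subtype.ext (by simp [mul_assoc])
  · change Gd ρ ⊤ (ψ x) (t x)
    by_cases hx : x ∈ S₁
    · rw [t1 _ hx]; exact hT ⟨x, hx⟩
    · rw [t2 _ hx, show ψ x = ψ (x * s⁻¹) * ψ s by simp, hW]
      exact (hT ⟨_, _⟩).mul (hX.smul μ)

theorem spl_swap {S₁ : Subgroup S} [hn : S₁.Normal] {s : S} (hs : ∀ x, x ∉ S₁ ↔ x * s⁻¹ ∈ S₁) {F' : Subgroup E}
    (hc : F' ≤ 𝐂(F)) (hd : ∀ e, ∃ f ∈ F, ∃ f' ∈ F', e = f * f') (hF : ∀ x ∈ S₁, ∀ e ∈ F, ψ x e ∈ F)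
    (h1 : ∀ e, e ∈ F ↔ ψ s e ∈ F') (h2 : Spl ρ F (ψ.comp S₁.subtype)) : Spl ρ ⊤ ψ := by
  obtain ⟨T, hT⟩ := h2
  obtain ⟨X, hX, -⟩ := h.itw hz (ψ s)
  have s1 : s ∉ S₁ := (hs s).2 (by simp)
  have s2 : s * s ∈ S₁ := by_contra fun c => s1 (by simpa using (hs _).1 c)
  have x1 : ∀ e, X * ρ e * (X⁻¹ : 𝒜ˣ) = ρ (ψ s e) := fun e => by rw [hX.itw e trivial, Units.mul_inv_cancel_right]
  let T' : S₁ →* 𝒜 := ((MulSemiringAction.toRingHom (ConjAct 𝒜ˣ) 𝒜 (ConjAct.toConjAct X) : 𝒜 →* 𝒜).comp T).comp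
    (MulAut.conjNormal s⁻¹ : MulAut S₁).toMonoidHom
  have t' : ∀ x, T' x = X * T (MulAut.conjNormal s⁻¹ x) * (X⁻¹ : 𝒜ˣ) := fun _ => rfl
  have hF' : ∀ x : S₁, ∀ e ∈ F', ψ x e ∈ F' := fun x e he => by
    have := (h1 _).1 (hF _ (hn.conj_mem _ x.2 s⁻¹) _ ((h1 (ψ s⁻¹ e)).2 (by simpa using he)))
    simpa using this
  have hT' : ∀ x : S₁, Gd ρ F' (ψ x) (T' x) := fun x => by
    refine ⟨sp_mem (hT _).mem fun e he => x1 e ▸ sp_of ((h1 e).1 he), fun e he => ?_⟩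
    obtain ⟨e, rfl⟩ := (ψ s).surjective e
    rw [t', ← x1, mul_assoc, mul_assoc (X : 𝒜) (ρ e), Units.inv_mul_cancel_left, mul_assoc, ← mul_assoc (T _),
      (hT _).itw e ((h1 e).2 he), ← mul_assoc, ← mul_assoc, hX.itw _ trivial]
    simp [mul_assoc]
  have cm : ∀ x y, T x * T' y = T' y * T x := fun x y => sp_comm hc (hT x).mem (hT' y).mem
  refine h.spl_two hz hs ⟨⟨fun x => T x * T' x, by simp⟩, fun x y => ?_⟩ (fun x => gd_prod hc hd (hF' x) (hT x) (hT' x)) hX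
    fun x => ?_
  · simp only [map_mul]
    rw [mul_assoc, ← mul_assoc (T y), cm]
    simp only [mul_assoc]
  · change X * (T x * T' x) = T _ * T' _ * X
    have e := sp_eq (u := (X : 𝒜) * X) (v := ((X⁻¹ : 𝒜ˣ) : 𝒜) * (X⁻¹ : 𝒜ˣ)) (u' := T ⟨_, s2⟩) (v' := T (⟨_, s2⟩ : S₁)⁻¹)
      (hT (MulAut.conjNormal s⁻¹ x)).mem fun e he => by
        rw [(hT _).itw e he, mul_assoc (ρ _), ← map_mul, mul_inv_cancel, map_one, mul_one, mul_assoc (X : 𝒜), mul_assoc (X : 𝒜),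
          ← mul_assoc (X * ρ e), x1, ← mul_assoc, x1]
        simp
    rw [← map_mul, ← map_mul, show (⟨_, s2⟩ : S₁) * MulAut.conjNormal s⁻¹ x * (⟨_, s2⟩ : S₁)⁻¹ = MulAut.conjNormal s x from
      Subtype.ext (by simp [mul_assoc])] at e
    rw [cm (MulAut.conjNormal s x), ← e, t', t', show MulAut.conjNormal s⁻¹ (MulAut.conjNormal s x) = x from
      Subtype.ext (by simp [mul_assoc])]
    simp [mul_assoc]

end ES

end Cfsg.Lib.Dade
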