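import Cfsg.Agent.Lib.Core.MinNormal
import Mathlib.RingTheory.IntegralDomain

/-! Extraspecial `2`-groups (and `C₂`): the commutator form and odd groups of automorphisms. -/

set_option autoImplicit false

namespace Cfsg.Lib.Dade

open Subgroup

variable {E : Type*} [Group E] {z : E}

local notation "𝐂(" S ")" => centralizer ((S : Subgroup _) : Set _)

/-- `E` is extraspecial with centre `⟨z⟩`, or `E = ⟨z⟩`. -/
structure ES (z : E) : Prop where
  ne : z ≠ 1
  cen : ∀ x, x ∈ center E ↔ x = 1 ∨ x = z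
  sq : ∀ x : E, x * x ∈ center E

open Classical in
/-- The commutator form. -/
noncomputable def bt (x y : E) : ℤ := if x * y = y * x then 1 else -1

theorem bt_comm (x y : E) : bt x y = bt y x := by
  classical exact if_congr eq_comm rfl rfl

theorem bt_pos {x y : E} (h : x * y = y * x) : bt x y = 1 := if_pos h

theorem bt_neg {x y : E} (h : x * y ≠ y * x) : bt x y = -1 := if_neg h

namespace ES

variable (h : ES z)
include h

theorem zc : z ∈ center E := (h.cen z).2 (.inr rfl)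

theorem two : z * z = 1 := ((h.cen _).1 (h.sq z)).resolve_right fun e => h.ne (mul_eq_left.1 e)

theorem cc {c : E} (hc : c ∈ center E) : c * c = 1 := by
  rcases (h.cen c).1 hc with rfl | rfl
  exacts [one_mul 1, h.two]

theorem cm (x y : E) : x * y * x⁻¹ * y⁻¹ ∈ center E := by
  rw [show x * y * x⁻¹ * y⁻¹ = x * x * (x⁻¹ * y * (x⁻¹ * y)) * (y⁻¹ * y⁻¹) by group]
  exact mul_mem (mul_mem (h.sq _) (h.sq _)) (h.sq _)

theorem dich {x y : E} (e : x * y ≠ y * x) : x * y = z * (y * x) := by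
  rcases (h.cen _).1 (h.cm x y) with a | a
  · exact absurd (by rw [← one_mul (y * x), ← a]; group) e
  · rw [← a]; group

theorem bt_mul (x x' y : E) : bt (x * x') y = bt x y * bt x' y := by
  by_cases a : x * y = y * x <;> by_cases b : x' * y = y * x'
  · rw [bt_pos a, bt_pos b, bt_pos (by rw [mul_assoc, b, ← mul_assoc, a, mul_assoc]), one_mul]
  · rw [bt_pos a, bt_neg b, bt_neg fun e => b (mul_left_cancel (a := x) (by rw [← mul_assoc, e, ← mul_assoc, ← mul_assoc, a])), one_mul]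
  · rw [bt_neg a, bt_pos b, bt_neg fun e => a (mul_right_cancel (b := x') (by rw [mul_assoc, ← b, ← mul_assoc, e, mul_assoc])), mul_one]
  · rw [bt_neg a, bt_neg b, bt_pos, neg_mul_neg, one_mul]
    rw [mul_assoc, h.dich b, ← mul_assoc, mem_center_iff.1 h.zc x, mul_assoc, ← mul_assoc x, h.dich a, ← mul_assoc, ← mul_assoc,
      h.two, one_mul, mul_assoc]

/-- The commutator form as a homomorphism. -/
noncomputable def bh (y : E) : E →* ℤ := ⟨⟨fun x => bt x y, bt_pos (by simp)⟩, fun x x' => h.bt_mul x x' y⟩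

theorem fz (σ : MulAut E) : σ z = z := by
  refine ((h.cen _).1 (mem_center_iff.2 fun g => ?_)).resolve_left fun e => h.ne (σ.map_eq_one_iff.1 e)
  obtain ⟨g, rfl⟩ := σ.surjective g
  rw [← map_mul, ← map_mul, mem_center_iff.1 h.zc]

theorem fc (σ : MulAut E) {c : E} (hc : c ∈ center E) : σ c = c := by
  rcases (h.cen c).1 hc with rfl | rfl
  exacts [map_one σ, h.fz σ]

theorem pg : IsPGroup 2 E := fun x => ⟨2, by
  rw [pow_two 2, pow_mul, pow_two, pow_two]; exact h.cc (h.sq x)⟩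

open Classical in
theorem sum_bt (F : Subgroup E) [Fintype F] (y : E) : ∑ g : F, bt (g : E) y = if y ∈ 𝐂(F) then (Nat.card F : ℤ) else 0 := by
  split_ifs with c
  · rw [Finset.sum_congr rfl fun (g : F) _ => bt_pos (c g g.2)]; simp
  · refine sum_hom_units_eq_zero ((h.bh y).comp F.subtype) fun e => c fun g hg => ?_
    by_contra a
    have : bt g y = 1 := DFunLike.congr_fun e ⟨g, hg⟩
    rw [bt_neg a] at this
    omega

open Classical in
theorem sum_bt' [Fintype E] (y : E) : ∑ g : E, bt g y = if y ∈ center E then (Nat.card E : ℤ) else 0 := by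
  have := h.sum_bt ⊤ y
  rw [coe_top, centralizer_univ, card_top] at this
  exact (Fintype.sum_equiv topEquiv.toEquiv _ (fun g => bt g y) fun _ => rfl).symm.trans (this.trans (by congr))

variable [Finite E]

theorem dec {F : Subgroup E} (rad : ∀ f ∈ F, f ∈ 𝐂(F) → f ∈ center E) (e : E) : ∃ g ∈ F, e * g ∈ 𝐂(F) := by
  classical
  have := Fintype.ofFinite F
  by_contra c
  push Not at c
  have h1 : ∑ g : F, ∑ f : F, bt (f : E) (e * g) = 0 := Finset.sum_eq_zero fun g _ => by rw [h.sum_bt, if_neg (c g g.2)]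
  rw [Finset.sum_comm] at h1
  refine (Finset.sum_pos' (fun f _ => ?_) ⟨1, Finset.mem_univ _, ?_⟩).ne' h1 <;>
    simp only [bt_comm _ (e * _), h.bt_mul, ← Finset.mul_sum, h.sum_bt]
  · split_ifs with a
    · rw [bt_pos (mem_center_iff.1 (rad f f.2 a) e)]; positivity
    · simp
  · rw [coe_one, if_pos (one_mem _), bt_pos (by simp), one_mul]
    exact Int.natCast_pos.2 Nat.card_pos

theorem dbl {A : Subgroup E} {x : E} (hx : ∀ g ∈ 𝐂(A), g * x = x * g) : ∃ a ∈ A, a * x ∈ center E := by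
  classical
  have := Fintype.ofFinite A
  have := Fintype.ofFinite E
  by_contra c
  push Not at c
  have h1 : ∑ a : A, ∑ g : E, bt g (a * x) = 0 := Finset.sum_eq_zero fun a _ => by rw [h.sum_bt', if_neg (c a a.2)]
  rw [Finset.sum_comm] at h1
  refine (Finset.sum_pos' (fun g _ => ?_) ⟨1, Finset.mem_univ _, ?_⟩).ne' h1 <;>
    simp only [bt_comm _ (_ * x), h.bt_mul, ← Finset.sum_mul, h.sum_bt]
  · split_ifs with a
    · rw [bt_pos (hx g a).symm]; positivity
    · simp
  · rw [if_pos (one_mem _), bt_pos (by simp), mul_one]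
    exact Int.natCast_pos.2 Nat.card_pos

omit [Finite E] in
theorem odd_fix {m : MulAut E} {n : ℕ} (hn : Odd n) (hm : m ^ n = 1) {w : E} (hw : m w * w⁻¹ ∈ center E) : m w = w := by
  have h2 : m ^ 2 ∈ MulAction.stabilizer (MulAut E) w := by
    change m (m w) = w
    obtain ⟨c, hc⟩ : ∃ c, c = m w * w⁻¹ := ⟨_, rfl⟩
    have e : m w = c * w := by rw [hc, inv_mul_cancel_right]
    rw [← hc] at hw
    rw [e, map_mul, h.fc m hw, e, ← mul_assoc, h.cc hw, one_mul]
  obtain ⟨k, rfl⟩ := hn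
  have := inv_mem (pow_mem h2 k)
  rwa [← pow_mul, inv_eq_of_mul_eq_one_right ((pow_succ m _).symm.trans hm)] at this

omit [Finite E] in
theorem fix_lift {M : Subgroup (MulAut E)} (hM : Odd (Nat.card M)) {B U : Subgroup E} (hB : center E ≤ B) (hU : center E ≤ U)
    (hUM : ∀ m ∈ M, ∀ u ∈ U, m u ∈ U) {y : E} (hy : y ∈ U) (hyB : ∀ m ∈ M, m y * y⁻¹ ∈ B) :
    ∃ w ∈ U, (∀ m ∈ M, m w = w) ∧ w * y⁻¹ ∈ B := by
  have : Finite M := Nat.finite_of_card_ne_zero (by rintro e; simp [e] at hM)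
  have := Fintype.ofFinite M
  letI : CommGroup (E ⧸ center E) := { (inferInstance : Group (E ⧸ center E)) with
    mul_comm := fun a b => by
      obtain ⟨a, rfl⟩ := QuotientGroup.mk_surjective a
      obtain ⟨b, rfl⟩ := QuotientGroup.mk_surjective b
      rw [← QuotientGroup.mk_mul, ← QuotientGroup.mk_mul, QuotientGroup.eq]
      simpa [mul_assoc] using h.cm b⁻¹ a⁻¹ }
  let π := QuotientGroup.mk' (center E)
  have k : ∀ (V : Subgroup E), center E ≤ V → ∀ x, π x ∈ V.map π → x ∈ V := fun V hV x hx => by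
    rwa [← mem_comap, QuotientGroup.comap_map_mk', sup_eq_right.2 hV] at hx
  obtain ⟨w, hw⟩ := QuotientGroup.mk'_surjective (center E) (∏ m : M, π (m.1 y))
  refine ⟨w, k U hU w (hw ▸ prod_mem fun m _ => mem_map_of_mem _ (hUM _ m.2 y hy)), fun m hm => ?_, k B hB _ ?_⟩
  · refine h.odd_fix hM (congrArg Subtype.val (pow_card_eq_one' (x := (⟨m, hm⟩ : M)))) ((QuotientGroup.eq_one_iff _).1 ?_)
    let μ := QuotientGroup.map (center E) (center E) m.toMonoidHom fun c hc => by
      rw [mem_comap]; exact (h.fc m hc).symm ▸ hc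
    change π _ = 1
    rw [map_mul, map_inv, mul_inv_eq_one, show π (m w) = μ (π w) from rfl, hw, map_prod]
    exact Fintype.prod_equiv (Equiv.mulLeft (⟨m, hm⟩ : M)) _ _ fun _ => rfl
  · have e : π y ^ Nat.card M = π y := by
      obtain ⟨j, hj⟩ := hM
      rw [hj, pow_succ, pow_mul, pow_two, ← map_mul, show π (y * y) = 1 from (QuotientGroup.eq_one_iff _).2 (h.sq y), one_pow,
        one_mul]
    rw [map_mul, map_inv, hw, ← e, ← inv_pow, Nat.card_eq_fintype_card, ← Finset.card_univ, ← Finset.prod_const,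
      ← Finset.prod_mul_distrib]
    exact prod_mem fun m _ => ⟨_, hyB _ m.2, by simp⟩

omit [Finite E] in
theorem not_mem_comm {K : Subgroup (MulAut E)} (hK : Odd (Nat.card K)) {R : Subgroup E} (hR : R ≤ 𝐂(R)) (hz : z ∈ R)
    (hRK : ∀ k ∈ K, ∀ x ∈ R, k x ∈ R) : z ∉ closure {y | ∃ k ∈ K, ∃ x ∈ R, y = k x * x⁻¹} := fun c => by
  have : Finite K := Nat.finite_of_card_ne_zero (by rintro e; simp [e] at hK)
  have := Fintype.ofFinite K
  letI : CommGroup R := { (inferInstance : Group R) with mul_comm := fun a b => Subtype.ext (hR b.2 a a.2) }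
  let κ : K → R →* R := fun k => (k.1.toMonoidHom.comp R.subtype).codRestrict R fun x => hRK _ k.2 x x.2
  have : closure {y | ∃ k ∈ K, ∃ x ∈ R, y = k x * x⁻¹} ≤ (∏ k, κ k).ker.map R.subtype := (closure_le _).2 (by
    rintro _ ⟨k, hk, x, hx, rfl⟩
    refine ⟨κ ⟨k, hk⟩ ⟨x, hx⟩ * (⟨x, hx⟩ : R)⁻¹, ?_, rfl⟩
    rw [SetLike.mem_coe, MonoidHom.mem_ker, map_mul, map_inv, mul_inv_eq_one, MonoidHom.finsetProd_apply,
      MonoidHom.finsetProd_apply]
    exact Fintype.prod_equiv (Equiv.mulRight (⟨k, hk⟩ : K)) _ _ fun _ => rfl)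
  obtain ⟨y, hy, e⟩ := this c
  obtain rfl : y = ⟨z, hz⟩ := Subtype.ext e
  rw [SetLike.mem_coe, MonoidHom.mem_ker, MonoidHom.finsetProd_apply,
    Finset.prod_congr rfl fun k _ => show κ k ⟨z, hz⟩ = ⟨z, hz⟩ from Subtype.ext (h.fz k.1), Finset.prod_const, Finset.card_univ,
    ← Nat.card_eq_fintype_card] at hy
  obtain ⟨j, hj⟩ := hK
  have := congrArg Subtype.val hy
  rw [hj, coe_pow, pow_succ, pow_mul, pow_two, h.two, one_pow, one_mul] at this
  exact h.ne this

omit [Finite E] in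
theorem cyc {r : ℕ} (hr : r.Prime) (ho : Odd r) {a b : MulAut E} (ha : a ^ r = 1) (hb : b ^ r = 1) (hab : Commute a b)
    (fb : ∀ x, b x = x → x ∈ center E) (fab : ∀ i : ℕ, ∀ x, (a * b ^ i) x = x → x ∈ center E) (y : E) : y ∈ center E := by
  have := Fact.mk hr
  letI : CommGroup (E ⧸ center E) := { (inferInstance : Group (E ⧸ center E)) with
    mul_comm := fun a b => by
      obtain ⟨a, rfl⟩ := QuotientGroup.mk_surjective a
      obtain ⟨b, rfl⟩ := QuotientGroup.mk_surjective b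
      rw [← QuotientGroup.mk_mul, ← QuotientGroup.mk_mul, QuotientGroup.eq]
      simpa [mul_assoc] using h.cm b⁻¹ a⁻¹ }
  let π := QuotientGroup.mk' (center E)
  have md : ∀ c : MulAut E, c ^ r = 1 → ∀ i j : ZMod r, c ^ (i + j).val = c ^ i.val * c ^ j.val ∧
      c ^ (i * j).val = (c ^ i.val) ^ j.val := fun c hc i j => by
    rw [ZMod.val_add, ZMod.val_mul, ← pow_eq_pow_mod _ hc, ← pow_eq_pow_mod _ hc, pow_add, pow_mul]
    exact ⟨rfl, rfl⟩
  have nm : ∀ c : MulAut E, c ^ r = 1 → (∀ x, c x = x → x ∈ center E) → ∀ y, ∏ j : ZMod r, π ((c ^ j.val) y) = 1 := fun c hc fc y => by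
    obtain ⟨w, hw⟩ := QuotientGroup.mk'_surjective (center E) (∏ j : ZMod r, π ((c ^ j.val) y))
    rw [← hw]
    refine (QuotientGroup.eq_one_iff _).2 (fc w (h.odd_fix ho hc ((QuotientGroup.eq_one_iff _).1 ?_)))
    let μ := QuotientGroup.map (center E) (center E) c.toMonoidHom fun d hd => by
      rw [mem_comap]; exact (h.fc c hd).symm ▸ hd
    change π _ = 1
    rw [map_mul, map_inv, mul_inv_eq_one, show π (c w) = μ (π w) from rfl, hw, map_prod]
    refine Fintype.prod_equiv (Equiv.addLeft 1) _ _ fun j => ?_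
    rw [Equiv.coe_addLeft, (md c hc 1 j).1, ZMod.val_one, pow_one]; rfl
  have h1 : ∏ i : ZMod r, ∏ j : ZMod r, π (((a * b ^ i.val) ^ j.val) y) = 1 := Finset.prod_eq_one fun i _ =>
    nm _ (by rw [(hab.pow_right _).mul_pow, ha, ← pow_mul, mul_comm i.val, pow_mul, hb, one_pow, one_mul]) (fab _) y
  rw [Finset.prod_comm, Finset.prod_eq_single 0 (fun j _ hj => ?_) (by simp)] at h1
  · obtain ⟨k, hk⟩ := ho
    simp only [ZMod.val_zero, pow_zero, MulAut.one_apply, Finset.prod_const, Finset.card_univ, ZMod.card] at h1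
    rw [hk, pow_succ, pow_mul, pow_two, ← map_mul, show π (y * y) = 1 from (QuotientGroup.eq_one_iff _).2 (h.sq y), one_pow,
      one_mul] at h1
    exact (QuotientGroup.eq_one_iff _).1 h1
  · rw [← nm b hb fb ((a ^ j.val) y)]
    refine Fintype.prod_equiv (Equiv.mulRight₀ j hj) _ _ fun i => ?_
    rw [Equiv.mulRight₀_apply, (md b hb i j).2, (hab.pow_right _).mul_pow, (((hab.pow_right _).pow_right _).pow_left _).eq]; rfl

end ES

variable {H : Type*} [Group H]

/-- Restriction of an action to an invariant subgroup. -/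
def res (φ : H →* MulAut E) (F : Subgroup E) (hF : ∀ h, ∀ x ∈ F, φ h x ∈ F) : H →* MulAut F where
  toFun h := ⟨⟨fun x => ⟨φ h x, hF h x x.2⟩, fun x => ⟨φ h⁻¹ x, hF _ x x.2⟩, fun x => Subtype.ext (by simp),
    fun x => Subtype.ext (by simp)⟩, fun x y => Subtype.ext (map_mul _ _ _)⟩
  map_one' := by ext; simp
  map_mul' a b := by ext; simp

/-- The action on the quotient by an invariant normal subgroup. -/
def quo (φ : H →* MulAut E) (A : Subgroup E) [A.Normal] (hA : ∀ h, ∀ x ∈ A, φ h x ∈ A) : H →* MulAut (E ⧸ A) where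
  toFun h := ⟨⟨QuotientGroup.map A A (φ h).toMonoidHom (hA h), QuotientGroup.map A A (φ h⁻¹).toMonoidHom (hA _),
    fun x => by obtain ⟨x, rfl⟩ := QuotientGroup.mk_surjective x; simp,
    fun x => by obtain ⟨x, rfl⟩ := QuotientGroup.mk_surjective x; simp⟩, map_mul _⟩
  map_one' := by ext x; obtain ⟨x, rfl⟩ := QuotientGroup.mk_surjective x; simp
  map_mul' a b := by ext x; obtain ⟨x, rfl⟩ := QuotientGroup.mk_surjective x; simp

end Cfsg.Lib.Dade
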