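import Cfsg.Agent.Lib.Dade.Alg

/-! Induction from the centralizer of an invariant isotropic subgroup. -/

set_option autoImplicit false

namespace Cfsg.Lib.Dade

open Subgroup

variable {E : Type*} [Group E] {z : E} {𝒜 : Type*} [Ring 𝒜] [Algebra ℂ 𝒜] {ρ : E →* 𝒜}
variable {S : Type*} [Group S] {ψ : S →* MulAut E}

set_option hygiene false in
local notation "𝐂(" S ")" => centralizer ((S : Subgroup E) : Set E)

/-- The corner of an algebra is an algebra. -/
abbrev cornerAlg {ε : 𝒜} (hε : IsIdempotentElem ε) : Algebra ℂ hε.Corner :=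
  RingHom.toAlgebra'
    { toFun := fun c => ⟨c • ε, (Subsemigroup.mem_corner_iff hε).2 (by rw [mul_smul_comm, smul_mul_assoc, hε.eq]; exact ⟨rfl, rfl⟩)⟩
      map_one' := Subtype.ext (one_smul _ _)
      map_mul' := fun c d => Subtype.ext (show (c * d) • ε = c • ε * d • ε by rw [smul_mul_smul, hε.eq])
      map_zero' := Subtype.ext (zero_smul _ _)
      map_add' := fun c d => Subtype.ext (add_smul _ _ _) }
    fun c x => Subtype.ext (show c • ε * x.1 = x.1 * c • ε by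
      rw [mul_smul_comm, smul_mul_assoc, ((Subsemigroup.mem_corner_iff hε).1 x.2).1, ((Subsemigroup.mem_corner_iff hε).1 x.2).2])

theorem cent_inv {A : Subgroup E} (hA : ∀ s, ∀ x ∈ A, ψ s x ∈ A) : ∀ s, ∀ x ∈ 𝐂(A), ψ s x ∈ 𝐂(A) := fun s x hx a ha => by
  have := congrArg (ψ s) (hx _ (hA s⁻¹ a ha))
  simpa using this

theorem ES.spl_ind [Finite E] (h : ES z) (hz : ρ z = -1) {A : Subgroup E} (hzA : z ∉ A) (hA : ∀ s, ∀ x ∈ A, ψ s x ∈ A)
    [(A.subgroupOf 𝐂(A)).Normal] (hzC : z ∈ 𝐂(A)) (hAC : A ≤ 𝐂(A))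
    (ih : ∀ {ε : 𝒜} (hε : IsIdempotentElem ε) (ρ' : 𝐂(A) ⧸ A.subgroupOf 𝐂(A) →* hε.Corner), ρ' (QuotientGroup.mk ⟨z, hzC⟩) = -1 →
      letI := cornerAlg hε
      Spl ρ' ⊤ (quo (res ψ 𝐂(A) (cent_inv hA)) (A.subgroupOf 𝐂(A)) fun s x hx => hA s x hx)) : Spl ρ ⊤ ψ := by
  classical
  have := Fintype.ofFinite E
  have a0 : (Nat.card A : ℂ) ≠ 0 := Nat.cast_ne_zero.2 Nat.card_pos.ne'
  have c0 : (Nat.card 𝐂(A) : ℂ) ≠ 0 := Nat.cast_ne_zero.2 Nat.card_pos.ne'
  obtain ⟨ε, hε⟩ : ∃ ε : 𝒜, ε = (Nat.card A : ℂ)⁻¹ • ∑ a : A, ρ a := ⟨_, rfl⟩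
  have e1 : ∀ a ∈ A, ρ a * ε = ε := fun a ha => by
    rw [hε, mul_smul_comm, Finset.mul_sum]
    exact congrArg _ (Fintype.sum_equiv (Equiv.mulLeft (⟨a, ha⟩ : A)) _ _ fun b => (map_mul ρ _ _).symm)
  have e2 : ∀ c ∈ 𝐂(A), ρ c * ε = ε * ρ c := fun c hc => by
    rw [hε, mul_smul_comm, smul_mul_assoc, Finset.mul_sum, Finset.sum_mul]
    exact congrArg _ (Finset.sum_congr rfl fun a _ => by rw [← map_mul, ← map_mul, hc a a.2])
  have idem : IsIdempotentElem ε := by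
    change ε * ε = ε
    nth_rw 1 [hε]
    rw [smul_mul_assoc, Finset.sum_mul, Finset.sum_congr rfl fun (a : A) _ => e1 a a.2, Finset.sum_const, Finset.card_univ,
      ← Nat.cast_smul_eq_nsmul ℂ, ← Nat.card_eq_fintype_card, inv_smul_smul₀ a0]
  have e3 : ∀ g, g ∉ 𝐂(A) → ε * ρ g * ε = 0 := fun g hg => by
    obtain ⟨a, ha, e⟩ : ∃ a ∈ A, a * g ≠ g * a := by simpa [mem_centralizer_iff] using hg
    have : ε * ρ g * ε = -(ε * ρ g * ε) := by
      nth_rw 1 [← e1 a ha, e2 a (hAC ha)]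
      rw [mul_assoc ε, ← map_mul, h.dich e, map_mul, map_mul, hz, mul_assoc ε, mul_assoc, mul_assoc, e1 a ha]
      simp [mul_assoc]
    rw [eq_neg_iff_add_eq_zero, ← two_smul ℂ] at this
    exact (smul_eq_zero.1 this).resolve_left two_ne_zero
  have eS : ε ∈ Sp ρ ⊤ := hε ▸ Submodule.smul_mem _ _ (Submodule.sum_mem _ fun _ _ => sp_of trivial)
  let ρ0 : 𝐂(A) →* idem.Corner :=
    { toFun := fun c => ⟨ε * ρ c, (Subsemigroup.mem_corner_iff idem).2 ⟨by rw [← mul_assoc, idem.eq],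
        by rw [mul_assoc, e2 c c.2, ← mul_assoc, idem.eq]⟩⟩
      map_one' := Subtype.ext (show ε * ρ 1 = ε by simp)
      map_mul' := fun c d => Subtype.ext (show ε * ρ (c * d) = ε * ρ c * (ε * ρ d) by
        rw [mul_assoc, ← mul_assoc (ρ c), e2 c c.2, ← mul_assoc, ← mul_assoc, idem.eq, map_mul, mul_assoc]) }
  letI := cornerAlg idem
  obtain ⟨T', hT'⟩ := ih idem (QuotientGroup.lift _ ρ0 fun a ha => Subtype.ext (show ε * ρ a = ε by
    rw [← e2 a a.2, e1 a ha])) (Subtype.ext (show ε * ρ z = -ε by rw [hz, mul_neg, mul_one]))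
  let t : S → 𝒜 := fun s => (T' s).1
  have t0 : ∀ s, ε * t s = t s ∧ t s * ε = t s := fun s => (Subsemigroup.mem_corner_iff idem).1 (T' s).2
  have t1 : t 1 = ε := congrArg Subtype.val T'.map_one
  have t2 : ∀ s s', t (s * s') = t s * t s' := fun s s' => congrArg Subtype.val (T'.map_mul s s')
  have t3 : ∀ s, t s ∈ Sp ρ ⊤ := fun s => by
    have := (hT' s).mem
    change (T' s).1 ∈ _
    generalize T' s = a at this
    induction this using Submodule.span_induction with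
    | mem x hx =>
      obtain ⟨x, -, rfl⟩ := hx
      obtain ⟨x, rfl⟩ := QuotientGroup.mk_surjective x
      exact sp_mul eS (sp_of trivial)
    | zero => exact Submodule.zero_mem _
    | add x y _ _ hx hy => exact Submodule.add_mem _ hx hy
    | smul c x _ hx => exact sp_mul (Submodule.smul_mem _ c eS) hx
  have t4 : ∀ s, ∀ c ∈ 𝐂(A), t s * ρ c = ρ (ψ s c) * t s := fun s c hc => by
    have : t s * (ε * ρ c) = ε * ρ (ψ s c) * t s := congrArg Subtype.val ((hT' s).itw (QuotientGroup.mk ⟨c, hc⟩) trivial)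
    rwa [← mul_assoc, (t0 s).2, ← e2 _ (cent_inv hA s c hc), mul_assoc, (t0 s).1] at this
  let T : S → 𝒜 := fun s => (Nat.card 𝐂(A) : ℂ)⁻¹ • ∑ e, ρ (ψ s e) * t s * ρ e⁻¹
  have hT : ∀ s, Gd ρ ⊤ (ψ s) (T s) := fun s => by
    refine ⟨Submodule.smul_mem _ _ (Submodule.sum_mem _ fun _ _ => sp_mul (sp_mul (sp_of trivial) (t3 s)) (sp_of trivial)),
      fun f _ => ?_⟩
    simp only [T, smul_mul_assoc, mul_smul_comm, Finset.sum_mul, Finset.mul_sum]
    refine congrArg _ (Fintype.sum_equiv (Equiv.mulLeft f) _ _ fun e => ?_).symm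
    simp only [Equiv.coe_mulLeft, mul_inv_rev, map_mul, mul_assoc]
    rw [← map_mul ρ f⁻¹, inv_mul_cancel, map_one, mul_one]
  have T1 : ∀ s, T s * ε = t s := fun s => by
    simp only [T, smul_mul_assoc, Finset.sum_mul]
    rw [← Finset.sum_subset (Finset.subset_univ (𝐂(A) : Set E).toFinset) fun e _ he => by
      rw [← (t0 s).2, mul_assoc, mul_assoc, mul_assoc, ← mul_assoc ε, e3 _ fun c => he (by simpa using c), mul_zero, mul_zero],
      Finset.sum_congr rfl fun e he => show _ = t s by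
        rw [← t4 s e (by simpa using he), mul_assoc (t s), ← map_mul, mul_inv_cancel, map_one, mul_one, (t0 s).2],
      Finset.sum_const, Set.toFinset_card, ← Nat.card_eq_fintype_card, ← Nat.cast_smul_eq_nsmul ℂ]
    exact inv_smul_smul₀ c0 _
  have T2 : ∀ s s', T (s * s') = T s * T s' := fun s s' => by
    change T (s * s') = T s * ((Nat.card 𝐂(A) : ℂ)⁻¹ • _)
    rw [mul_smul_comm, Finset.mul_sum]
    refine congrArg _ (Finset.sum_congr rfl fun e _ => ?_)
    rw [← mul_assoc, ← mul_assoc, (hT s).itw _ trivial, ← (t0 s').1, mul_assoc _ (T s), ← mul_assoc (T s), T1, t2, map_mul]; rfl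
  have T3 : T 1 = 1 := by
    have e : T 1 = ((Nat.card 𝐂(A) : ℂ)⁻¹ * ((Nat.card A : ℂ)⁻¹ * Nat.card E)) • (1 : 𝒜) := by
      simp only [T, t1, hε, map_one, MulAut.one_apply, smul_mul_assoc, mul_smul_comm, Finset.sum_mul, Finset.mul_sum, ← map_mul,
        ← Finset.smul_sum, mul_smul]
      rw [Finset.sum_comm, Finset.sum_eq_single 1 (fun a _ ha => ?_) (by simp)]
      · simp [Nat.cast_smul_eq_nsmul]
      · rw [h.av hz, if_neg fun c => ((h.cen _).1 c).elim (fun e => ha (Subtype.ext e)) fun e => hzA (e ▸ a.2)]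
    have u : IsUnit (T 1) := by
      rw [e, ← Algebra.algebraMap_eq_smul_one]
      exact (IsUnit.mk0 _ (mul_ne_zero (inv_ne_zero c0) (mul_ne_zero (inv_ne_zero a0)
        (Nat.cast_ne_zero.2 Nat.card_pos.ne')))).map _
    exact u.mul_left_cancel (by rw [← T2, mul_one, mul_one])
  exact ⟨⟨⟨T, T3⟩, T2⟩, hT⟩

end Cfsg.Lib.Dade
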