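import Cfsg.Agent.Lib.Dade.Ind
import Cfsg.Agent.Lib.PF.Main

/-! Dade's extension theorem for extraspecial `2`-groups: the induction. -/

set_option autoImplicit false

namespace Cfsg.Lib.Dade

open Subgroup

universe u v w

variable {E : Type u} [Group E] {z : E} {𝒜 : Type w} [Ring 𝒜] [Algebra ℂ 𝒜] {ρ : E →* 𝒜}
variable {S : Type v} [Group S] {ψ : S →* MulAut E} {K : Subgroup (MulAut E)}

set_option hygiene false in
local notation "𝐂(" S ")" => centralizer ((S : Subgroup E) : Set E)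

/-- `K` is a fixed-point-free odd group of automorphisms normalized by `S`. -/
structure Hy (ψ : S →* MulAut E) (K : Subgroup (MulAut E)) : Prop where
  odd : Odd (Nat.card K)
  norm : ∀ s, ∀ k ∈ K, ψ s * k * (ψ s)⁻¹ ∈ K
  fpf : ∀ e, (∀ k ∈ K, k e = e) → e ∈ center E

/-- The inductive statement. -/
def Stmt (n : ℕ) : Prop := ∀ (E : Type u) [Group E] [Finite E] (z : E), Nat.card E < n → ES z →
  ∀ (S : Type v) [Group S] [Finite S], IsPGroup 2 S → ∀ (ψ : S →* MulAut E) (K : Subgroup (MulAut E)), Hy ψ K →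
    ∀ (𝒜 : Type w) [Ring 𝒜] [Algebra ℂ 𝒜] (ρ : E →* 𝒜), ρ z = -1 → Spl ρ ⊤ ψ

/-- Fixed points. -/
def Fx (M : Subgroup (MulAut E)) : Subgroup E where
  carrier := {e | ∀ m ∈ M, m e = e}
  one_mem' := fun m _ => map_one m
  mul_mem' := fun ha hb m hm => by rw [map_mul, ha m hm, hb m hm]
  inv_mem' := fun ha m hm => by rw [map_inv, ha m hm]

theorem fx_inv {M : Subgroup (MulAut E)} {σ : MulAut E} (h : ∀ m ∈ M, σ⁻¹ * m * σ ∈ M) {x : E} (hx : x ∈ Fx M) : σ x ∈ Fx M :=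
  fun m hm => by simpa using congrArg σ (hx _ (h m hm))

theorem card_lt [Finite E] {F : Subgroup E} (h : F ≠ ⊤) : Nat.card F < Nat.card E :=
  lt_of_not_ge fun e => h (eq_top_of_le_card F e)

variable [Finite E] [Finite S] (ih : Stmt.{u, v, w} (Nat.card E)) (h : ES z) (hz : ρ z = -1) (hS : IsPGroup 2 S)
include ih h hz hS

theorem spl_sub (hy : Hy ψ K) {F : Subgroup E} (hF : F ≠ ⊤) (hZ : center E ≤ F) (rad : ∀ f ∈ F, f ∈ 𝐂(F) → f ∈ center E)
    (h1 : ∀ s, ∀ x ∈ F, ψ s x ∈ F) (h2 : ∀ k ∈ K, ∀ x ∈ F, k x ∈ F) : Spl ρ F ψ := by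
  have c : ∀ x : F, x ∈ center F ↔ (x : E) ∈ center E := fun x =>
    ⟨fun a => rad x x.2 fun g hg => congrArg Subtype.val (mem_center_iff.1 a ⟨g, hg⟩),
      fun a => mem_center_iff.2 fun g => Subtype.ext (mem_center_iff.1 a g)⟩
  refine Spl.of_res (hF := h1) (ih F ⟨z, hZ h.zc⟩ (card_lt hF) ⟨fun e => h.ne (congrArg Subtype.val e), fun x => ?_,
    fun x => (c _).2 (h.sq x)⟩ S hS _ (res K.subtype F fun k => h2 k k.2).range ⟨hy.odd.of_dvd_nat (card_range_dvd _), ?_,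
      fun e he => (c e).2 (hy.fpf e fun k hk => congrArg Subtype.val (he _ ⟨⟨k, hk⟩, rfl⟩))⟩ 𝒜 _ hz)
  · rw [c, h.cen, Subtype.ext_iff, Subtype.ext_iff]; rfl
  · rintro s _ ⟨k, rfl⟩
    exact ⟨⟨_, hy.norm s k k.2⟩, by rw [← map_inv (res _ _ _)]; ext; simp [res]⟩

theorem spl_red (hy : Hy ψ K) {F : Subgroup E} (hF : F ≠ ⊤) (hZ : center E ≤ F) (hZ' : ¬ F ≤ center E)
    (h1 : ∀ s, ∀ x ∈ F, ψ s x ∈ F) (h2 : ∀ k ∈ K, ∀ x ∈ F, k x ∈ F) : Spl ρ ⊤ ψ := by
  have h3 : ∀ k ∈ K, ∀ x ∈ 𝐂(F), k x ∈ 𝐂(F) := fun k hk => cent_inv (ψ := K.subtype) (fun k => h2 k k.2) ⟨k, hk⟩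
  by_cases rad : ∀ f ∈ F, f ∈ 𝐂(F) → f ∈ center E
  · have d : ∀ e, ∃ f ∈ F, ∃ f' ∈ 𝐂(F), e = f * f' := fun e => by
      obtain ⟨g, hg, c⟩ := h.dec rad e
      exact ⟨_, inv_mem hg, _, c, by rw [c _ (inv_mem hg), mul_inv_cancel_right]⟩
    refine Spl.prod le_rfl d (cent_inv h1) (spl_sub ih h hz hS hy hF hZ rad h1 h2)
      (spl_sub ih h hz hS hy (fun e => hZ' fun x hx => mem_center_iff.2 fun g => (e.ge (mem_top g) x hx).symm)
        (center_le_centralizer _) (fun f hf hf' => mem_center_iff.2 fun g => ?_) (cent_inv h1) h3)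
    obtain ⟨a, ha, b, hb, rfl⟩ := d g
    rw [mul_assoc, hf' b hb, ← mul_assoc, hf a ha, mul_assoc]
  push Not at rad
  obtain ⟨x, hx, hx', hxZ⟩ := rad
  have zA := h.not_mem_comm hy.odd (R := F ⊓ 𝐂(F)) (fun a ha b hb => ha.2 b hb.1) ⟨hZ h.zc, center_le_centralizer _ h.zc⟩
    fun k hk y hy => ⟨h2 k hk y hy.1, h3 k hk y hy.2⟩
  set A := closure {y | ∃ k ∈ K, ∃ x ∈ F ⊓ 𝐂(F), y = k x * x⁻¹} with hA
  have inv : ∀ σ : MulAut E, (∀ k ∈ K, σ * k * σ⁻¹ ∈ K) → (∀ y ∈ F ⊓ 𝐂(F), σ y ∈ F ⊓ 𝐂(F)) → ∀ y ∈ A, σ y ∈ A := fun σ a b =>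
    show A ≤ A.comap σ.toMonoidHom from (closure_le _).2 (by
      rintro _ ⟨k, hk, y, hy, rfl⟩
      exact subset_closure ⟨_, a k hk, _, b y hy, by simp⟩)
  have a1 : ∀ s, ∀ y ∈ A, ψ s y ∈ A := fun s => inv _ (hy.norm s) fun y hy => ⟨h1 s y hy.1, cent_inv h1 s y hy.2⟩
  have a2 : ∀ k : K, ∀ y ∈ A, K.subtype k y ∈ A := fun k => inv _ (fun l hl => mul_mem (mul_mem k.2 hl) (inv_mem k.2))
    fun y hy => ⟨h2 k k.2 y hy.1, h3 k k.2 y hy.2⟩
  have AZ : ∀ a ∈ A, a ∈ center E → a = 1 := fun a ha c => ((h.cen a).1 c).resolve_right fun e => zA (e ▸ ha)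
  have cA : ∀ a b : E, a * b * a⁻¹ * b⁻¹ ∈ A → a * b = b * a := fun a b c => by
    rw [← one_mul (b * a), ← AZ _ c (h.cm a b)]; group
  have AC : A ≤ 𝐂(A) := fun a ha b hb => cA _ _ (mul_mem (mul_mem (mul_mem hb ha) (inv_mem hb)) (inv_mem ha))
  have : (A.subgroupOf 𝐂(A)).Normal := normal_subgroupOf_of_le_normalizer (centralizer_le_normalizer _)
  have zC : z ∈ 𝐂(A) := center_le_centralizer _ h.zc
  have c : ∀ x : 𝐂(A), (∃ a ∈ A, a * x ∈ center E) → (x : 𝐂(A) ⧸ A.subgroupOf 𝐂(A)) = 1 ∨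
      (x : 𝐂(A) ⧸ A.subgroupOf 𝐂(A)) = QuotientGroup.mk ⟨z, zC⟩ := by
    rintro x ⟨a, ha, c⟩
    refine ((h.cen _).1 c).imp (fun e => (QuotientGroup.eq_one_iff _).2 ?_) fun e => QuotientGroup.eq.2 ?_
    · rw [mem_subgroupOf, eq_inv_of_mul_eq_one_right e]; exact inv_mem ha
    · change (x : E)⁻¹ * z ∈ A
      rwa [← e, x.2 a ha, inv_mul_cancel_left]
  have c' : ∀ x : 𝐂(A), (x : E) ∈ center E → (x : 𝐂(A) ⧸ A.subgroupOf 𝐂(A)) ∈ center _ := fun x hx => mem_center_iff.2 fun g => by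
    obtain ⟨g, rfl⟩ := QuotientGroup.mk_surjective g
    exact congrArg QuotientGroup.mk (Subtype.ext (mem_center_iff.1 hx g) : g * x = x * g)
  refine h.spl_ind hz zA a1 zC AC fun hε ρ' hρ' => ?_
  letI := cornerAlg hε
  refine ih _ _ (lt_of_le_of_lt (Nat.card_le_card_of_surjective _ QuotientGroup.mk_surjective) (card_lt fun e => hxZ ?_))
    ⟨fun e => zA ((QuotientGroup.eq_one_iff (N := A.subgroupOf 𝐂(A)) _).1 e), fun y => ⟨fun hy => ?_, ?_⟩, fun y => ?_⟩ S hS _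
    (quo (res K.subtype 𝐂(A) (cent_inv a2)) (A.subgroupOf 𝐂(A)) fun k x hx => a2 k x hx).range
    ⟨hy.odd.of_dvd_nat (card_range_dvd _), ?_, fun y hy' => ?_⟩ _ ρ' hρ'
  · refine hy.fpf x fun k hk => mul_inv_eq_one.1 ?_
    have m : k x * x⁻¹ ∈ A := subset_closure ⟨k, hk, x, ⟨hx, hx'⟩, rfl⟩
    exact AZ _ m (mem_center_iff.2 fun g => (e.ge (mem_top g) _ m).symm)
  · obtain ⟨y, rfl⟩ := QuotientGroup.mk_surjective y
    refine c y (h.dbl fun g hg => cA _ _ ?_)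
    have := QuotientGroup.eq.1 (mem_center_iff.1 (inv_mem hy) (QuotientGroup.mk ⟨g, hg⟩)⁻¹).symm
    simpa [mem_subgroupOf, mul_assoc] using this
  · rintro (rfl | rfl)
    exacts [one_mem _, c' _ h.zc]
  · obtain ⟨y, rfl⟩ := QuotientGroup.mk_surjective y
    exact c' (y * y) (h.sq y)
  · rintro s _ ⟨k, rfl⟩
    refine ⟨⟨_, hy.norm s k k.2⟩, ?_⟩
    rw [eq_mul_inv_iff_mul_eq]
    ext y
    obtain ⟨y, rfl⟩ := QuotientGroup.mk_surjective y
    exact congrArg QuotientGroup.mk (Subtype.ext (by simp [res]))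
  · obtain ⟨y, rfl⟩ := QuotientGroup.mk_surjective y
    obtain ⟨w, -, hw, hw'⟩ := h.fix_lift hy.odd (B := A ⊔ center E) (U := ⊤) le_sup_right le_top (fun _ _ _ _ => trivial)
      (y := (y : E)⁻¹) trivial fun k hk => mem_sup_left (by
        have := QuotientGroup.eq.1 (hy' _ ⟨⟨k, hk⟩, rfl⟩)
        simpa [mem_subgroupOf, res] using this)
    obtain ⟨a, ha, d, hd, e⟩ := (Core.mem_sup_of_le_normalizer_right le_normalizer_of_normal).1 hw'
    rcases c y ⟨_, inv_mem ha, by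
      have : a⁻¹ * y = (hy.fpf w hw |> fun _ => w⁻¹ * d) := by
        rw [inv_inv] at e
        rw [← inv_mul_cancel_left w y, ← e, ← mul_assoc, mem_center_iff.1 (inv_mem (hy.fpf w hw)) a⁻¹]; group
      rw [this]; exact mul_mem (inv_mem (hy.fpf w hw)) hd⟩ with e | e <;> rw [e]
    exacts [one_mem _, c' _ h.zc]

theorem spl_step (hy : Hy ψ K) : Spl ρ ⊤ ψ := by
  by_cases h0 : center E = ⊤
  · exact ⟨1, fun s => ⟨sp_one, fun e _ => by simp [h.fc (ψ s) (h0.ge (mem_top e))]⟩⟩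
  by_contra hne
  have irr : ∀ {K : Subgroup (MulAut E)}, Hy ψ K → ∀ F : Subgroup E, center E ≤ F → (∀ s, ∀ x ∈ F, ψ s x ∈ F) →
      (∀ k ∈ K, ∀ x ∈ F, k x ∈ F) → ¬ F ≤ center E → F = ⊤ := fun hy F a b c d =>
    by_contra fun e => hne (spl_red ih h hz hS hy e a d b c)
  have zF : ∀ M, center E ≤ Fx M := fun M c hc m _ => h.fc m hc
  have fb : ∀ M : Subgroup (MulAut E), Fx M = ⊤ → M = ⊥ := fun M e => eq_bot_iff.2 fun m hm =>
    MulEquiv.ext fun x => e.ge (mem_top x) m hm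
  have nK : ψ.range ⊔ K ≤ normalizer (K : Set (MulAut E)) :=
    sup_le (by rintro _ ⟨s, rfl⟩; exact mem_normalizer_fintype (hy.norm s)) le_normalizer
  obtain ⟨L, hL, nL, L0, mL⟩ := Core.exists_minimal_invariant_le nK fun e => h0 (eq_top_iff.2 fun x _ => hy.fpf x fun k hk => by
    rw [mem_bot.1 (e.le hk)]; rfl)
  have oL := hy.odd.of_dvd_nat (card_dvd_of_le hL)
  obtain ⟨r, hr, cL, pL⟩ := Core.isElementaryAbelian_of_minimal_invariant nL L0 (PF.isSolvable_of_odd _ oL) mL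
  have nL' : ∀ s, ψ s ∈ normalizer (L : Set (MulAut E)) := fun s => nL (mem_sup_left ⟨s, rfl⟩)
  have hyL : Hy ψ L := ⟨oL, fun s k => (mem_normalizer_iff.1 (nL' s) k).1, by_contra fun c => L0 (fb L (irr hy _ (zF L)
    (fun s _ => fx_inv fun m => (mem_normalizer_iff''.1 (nL' s) m).1)
    (fun k hk _ => fx_inv fun m => (mem_normalizer_iff''.1 (nL (mem_sup_right hk)) m).1) c))⟩
  have cm : ∀ a ∈ L, ∀ b ∈ L, a * b = b * a := fun a ha b hb => setLike_mul_comm ha hb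
  have lF : ∀ M ≤ L, ∀ k ∈ L, ∀ x ∈ Fx M, k x ∈ Fx M := fun M hM k hk _ => fx_inv fun m hm => by
    rwa [mul_assoc, cm m (hM hm) k hk, inv_mul_cancel_left]
  obtain ⟨M, -, hM⟩ := Finite.exists_le_maximal (p := fun M : Subgroup (MulAut E) => M ≤ L ∧ ¬ Fx M ≤ center E) (a := ⊥)
    ⟨bot_le, fun e => h0 (eq_top_iff.2 fun x _ => e fun m hm => by rw [mem_bot.1 hm]; rfl)⟩
  by_cases c : (normalizer (M : Set (MulAut E))).comap ψ = ⊤
  · obtain rfl := fb M (irr hyL _ (zF M) (fun s _ => fx_inv fun m => (mem_normalizer_iff''.1 (c.ge (mem_top s)) m).1)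
      (lF M hM.1.1) hM.1.2)
    have fp : ∀ b ∈ L, b ≠ 1 → ∀ x, b x = x → x ∈ center E := fun b hb b1 x hx => by_contra fun d =>
      b1 (hM.2 ⟨zpowers_le.2 hb, fun e => d (e fun m hm => zpowers_le.2 (show b ∈ MulAction.stabilizer (MulAut E) x from hx) hm)⟩
        bot_le (mem_zpowers b))
    obtain ⟨⟨b, hb⟩, b1⟩ := ne_bot_iff_exists_ne_one.1 L0
    replace b1 : b ≠ 1 := fun e => b1 (Subtype.ext e)
    have := Fact.mk hr
    have ob := orderOf_eq_prime (pL b hb) b1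
    have eL : L = zpowers b := le_antisymm (fun a ha => by_contra fun d => h0 (eq_top_iff.2 fun y _ =>
      h.cyc hr (oL.of_dvd_nat (ob ▸ orderOf_dvd_natCard L hb)) (pL a ha) (pL b hb) (cm a ha b hb) (fp b hb b1)
        (fun i => fp _ (mul_mem ha (pow_mem hb i)) fun e => d (eq_inv_of_mul_eq_one_left e ▸ inv_mem (pow_mem (mem_zpowers b) i))) y))
      (zpowers_le.2 hb)
    have cardL : Nat.card L = r := by rw [eL, Nat.card_zpowers, ob]
    have := isCyclic_of_prime_card cardL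
    have : IsCyclic (MulAut L) := by
      have := ZMod.isCyclic_units_prime (cardL ▸ hr : (Nat.card L).Prime)
      exact isCyclic_of_surjective _ (IsCyclic.mulAutMulEquiv L).symm.surjective
    let f : S →* MulAut L := L.normalizerMonoidHom.comp (ψ.codRestrict _ nL')
    have kf : ∀ s ∈ f.ker, ∀ l ∈ L, ∀ x, ψ s (l x) = l (ψ s x) := fun s hs l hl x => by
      have : ψ s * l * (ψ s)⁻¹ = l := congrArg Subtype.val (DFunLike.congr_fun (MonoidHom.mem_ker.1 hs) (⟨l, hl⟩ : L))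
      exact DFunLike.congr_fun (mul_inv_eq_iff_eq_mul.1 this) x
    have ci : ∀ (σ : MulAut E), ∀ x ∈ center E, σ x ∈ center E := fun σ x hx => (h.fc σ hx).symm ▸ hx
    let q := quo (MonoidHom.id (MulAut E)) (center E) ci
    have hq : ∀ σ (x : E), q σ x = (σ x : E) := fun _ _ => rfl
    let U := (Fx (f.ker.map (q.comp ψ))).comap (QuotientGroup.mk' (center E))
    have mU : ∀ x, x ∈ U ↔ ∀ s ∈ f.ker, ((ψ s x : E) : E ⧸ center E) = x := fun x =>
      ⟨fun a s hs => a _ ⟨s, hs, rfl⟩, by rintro a _ ⟨s, hs, rfl⟩; exact a s hs⟩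
    have hU : U = ⊤ := by
      refine irr hyL U (fun x hx => (mU x).2 fun s _ => by rw [h.fc _ hx]) (fun s x hx => (mU _).2 fun t ht => ?_)
        (fun l hl x hx => (mU _).2 fun t ht => by rw [kf t ht l hl, ← hq, (mU x).1 hx t ht, hq]) fun e => ?_
      · have := congrArg (q (ψ s)) ((mU x).1 hx _ (f.normal_ker.conj_mem t ht s⁻¹))
        simpa [hq] using this
      · have : Nontrivial (E ⧸ center E) := QuotientGroup.nontrivial_iff.2 h0
        obtain ⟨y, hy, y1⟩ := ((hS.to_subgroup f.ker).map (q.comp ψ)).exists_fixed_point_of_prime_dvd_card_of_fixed_point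
          (E ⧸ center E) ((h.pg.to_quotient _).card_eq_or_dvd.resolve_left Finite.one_lt_card.ne') (a := 1)
          fun m => map_one m.1
        obtain ⟨y, rfl⟩ := QuotientGroup.mk_surjective y
        exact y1 ((QuotientGroup.eq_one_iff _).2 (e fun m hm => hy ⟨m, hm⟩)).symm
    have kψ : ∀ s ∈ f.ker, ψ s = 1 := fun s hs => MulEquiv.ext fun y => by
      have hs' : ∀ x, (ψ s x)⁻¹ * x ∈ center E := fun x => QuotientGroup.eq.1 ((mU x).1 (hU.ge (mem_top x)) s hs)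
      obtain ⟨w, -, hw, hw'⟩ := h.fix_lift oL (B := (ψ s).toMonoidHom.eqLocus (MonoidHom.id E)) (U := ⊤)
        (fun x hx => h.fc _ hx) le_top (fun _ _ _ _ => trivial) (y := y) trivial fun l hl => by
          change ψ s _ = _
          obtain ⟨c, hc, e⟩ : ∃ c ∈ center E, ψ s y = y * c := ⟨_, inv_mem (hs' y), by group⟩
          rw [map_mul, map_inv, kf s hs l hl, MonoidHom.id_apply, e, map_mul, h.fc l hc]
          group
      have e : ψ s (w * y⁻¹) = w * y⁻¹ := hw'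
      rwa [map_mul, h.fc _ (hyL.fpf w hw), mul_right_inj, map_inv, inv_inj] at e
    obtain ⟨⟨_, s, rfl⟩, hs⟩ := IsCyclic.exists_generator (α := f.range)
    have : IsCyclic ψ.range := ⟨⟨ψ.rangeRestrict s, by
      rintro ⟨_, x, rfl⟩
      obtain ⟨i, hi⟩ := hs (f.rangeRestrict x)
      have : s ^ i * x⁻¹ ∈ f.ker := by
        rw [MonoidHom.mem_ker, map_mul, map_inv, map_zpow, mul_inv_eq_one]; exact congrArg Subtype.val hi
      have := kψ _ this
      rw [map_mul, map_inv, mul_inv_eq_one, map_zpow] at this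
      exact ⟨i, Subtype.ext this⟩⟩⟩
    exact hne (h.spl_cyc hz)
  obtain ⟨S₁, le, -, -, c1⟩ := PGroup.exists_card_mul_eq_of_lt (hS.to_subgroup ⊤) (lt_top_iff_ne_top.2 c)
  have i2 : S₁.index = 2 := by
    have := S₁.card_mul_index
    rw [← card_top (G := S), c1, mul_comm] at this
    exact Nat.eq_of_mul_eq_mul_right Nat.card_pos this
  have := normal_of_index_eq_two i2
  obtain ⟨s, -, s1⟩ := SetLike.exists_of_lt (lt_top_iff_ne_top.2 fun e : S₁ = ⊤ => by simp [e] at i2)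
  have hs : ∀ x, x ∉ S₁ ↔ x * s⁻¹ ∈ S₁ := fun x => by rw [mul_mem_iff_of_index_two i2, inv_mem_iff]; tauto
  let G : Prop → Subgroup E := fun b => closure {y | ∃ t, (t ∈ S₁ ↔ b) ∧ ∃ x ∈ Fx M, y = ψ t x}
  have g1 : ∀ t b b', ((t ∈ S₁ ↔ b) ↔ b') → ∀ y ∈ G b, ψ t y ∈ G b' := fun t b b' e =>
    show G b ≤ (G b').comap (ψ t).toMonoidHom from (closure_le _).2 (by
      rintro _ ⟨t', ht, x, hx, rfl⟩
      exact subset_closure ⟨t * t', by rw [mul_mem_iff_of_index_two i2]; tauto, x, hx, by simp⟩)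
  have g2 : ∀ b, ∀ l ∈ L, ∀ y ∈ G b, l y ∈ G b := fun b l hl =>
    show G b ≤ (G b).comap l.toMonoidHom from (closure_le _).2 (by
      rintro _ ⟨t, ht, x, hx, rfl⟩
      exact subset_closure ⟨t, ht, _, lF M hM.1.1 _ ((mem_normalizer_iff''.1 (nL' t) l).1 hl) x hx, by simp⟩)
  have g3 : ∀ t, t ∉ S₁ → ∀ x ∈ Fx M, ∀ y ∈ Fx M, ψ t y ∈ centralizer {x} := fun t ht x hx y hy => by
    let M' := M.map (MulAut.conj (ψ t)).toMonoidHom
    have M'L : M' ≤ L := by rintro _ ⟨m, hm, rfl⟩; exact hyL.norm t m (hM.1.1 hm)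
    obtain ⟨w, w1, w2, w3⟩ := h.fix_lift (oL.of_dvd_nat (card_dvd_of_le hM.1.1)) (B := centralizer {x}) (U := Fx M')
      (center_le_centralizer _) (zF _) (fun m hm => lF M' M'L m (hM.1.1 hm)) (y := ψ t y)
      (by rintro _ ⟨m, hm, rfl⟩; simp [hy m hm]) fun m hm => by
        rw [mem_centralizer_singleton_iff]
        by_contra d
        have e := h.bt_mul (m (ψ t y)) (ψ t y)⁻¹ x
        have e1 : bt (m (ψ t y)) x = bt (ψ t y) x := by
          nth_rw 1 [← hx m hm]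
          classical exact if_congr (by rw [← map_mul, ← map_mul, EmbeddingLike.apply_eq_iff_eq]) rfl rfl
        rw [bt_neg d, e1, ← h.bt_mul, bt_pos (by simp)] at e
        omega
    have : w ∈ center E := by
      by_contra d
      have := hM.2 (y := M ⊔ M') ⟨sup_le hM.1.1 M'L, fun e => d (e fun m hm =>
        (sup_le w2 w1 : M ⊔ M' ≤ MulAction.stabilizer (MulAut E) w) hm)⟩ le_sup_left
      exact ht (le (mem_normalizer_fintype fun m hm => this (mem_sup_right ⟨m, hm, rfl⟩)))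
    exact inv_mem_iff.1 ((mul_mem_cancel_left (center_le_centralizer _ this)).1 w3)
  have g4 : G False ≤ 𝐂(G True) := by
    rw [centralizer_closure, closure_le]
    rintro _ ⟨t, ht, y, hy, rfl⟩ _ ⟨t', ht', x, hx, rfl⟩
    have := mem_centralizer_singleton_iff.1 (g3 (t'⁻¹ * t) (by rw [mul_mem_iff_of_index_two i2, inv_mem_iff]; tauto) x hx y hy)
    simpa using (congrArg (ψ t') this).symm
  have g5 : Fx M ≤ G True := fun x hx => subset_closure ⟨1, by simp, x, hx, by simp⟩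
  have g6 : G True ⊔ G False = ⊤ := by
    refine irr hyL _ (((zF M).trans g5).trans le_sup_left) (fun t => ?_) (fun l hl => ?_) fun e => hM.1.2 (g5.trans (le_sup_left.trans e))
    · refine show _ ≤ (G True ⊔ G False).comap (ψ t).toMonoidHom from sup_le (fun y hy => ?_) fun y hy => ?_ <;> by_cases a : t ∈ S₁
      exacts [mem_sup_left (g1 t _ _ (by tauto) y hy), mem_sup_right (g1 t _ _ (by tauto) y hy),
        mem_sup_right (g1 t _ _ (by tauto) y hy), mem_sup_left (g1 t _ _ (by tauto) y hy)]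
    · exact show _ ≤ (G True ⊔ G False).comap l.toMonoidHom from
        sup_le (fun y hy => mem_sup_left (g2 _ l hl y hy)) fun y hy => mem_sup_right (g2 _ l hl y hy)
  have d : ∀ e, ∃ f ∈ G True, ∃ f' ∈ G False, e = f * f' := fun e => by
    obtain ⟨a, ha, b, hb, e⟩ := (Core.mem_sup_of_le_normalizer_left (g4.trans (centralizer_le_normalizer _))).1 (g6.ge (mem_top e))
    exact ⟨a, ha, b, hb, e.symm⟩
  refine hne (h.spl_swap hz hs g4 d (fun t ht => g1 t _ _ (by tauto)) (fun e => ⟨g1 s _ _ (by tauto) e, fun a => ?_⟩)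
    (spl_sub ih h hz (hS.to_subgroup S₁) (K := L) ⟨oL, fun t => hyL.norm t, hyL.fpf⟩ (fun e => hM.1.2 fun x hx => ?_) ((zF M).trans g5)
      (fun f hf hf' => mem_center_iff.2 fun g => ?_) (fun t => g1 t _ _ (by simp)) (g2 _)))
  · simpa using g1 s⁻¹ _ True (by rw [inv_mem_iff]; tauto) _ a
  · have := g4 (g1 s _ False (by tauto) x (g5 hx))
    exact mem_center_iff.2 fun g => (ψ s).injective (by simpa using this (ψ s g) (e.ge (mem_top _)))
  · obtain ⟨a, ha, b, hb, rfl⟩ := d g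
    rw [mul_assoc, ← g4 hb f hf, ← mul_assoc, hf' a ha, mul_assoc]

omit ih h hz hS in
theorem stmt (n : ℕ) : Stmt.{u, v, w} n := by
  induction n using Nat.strong_induction_on with
  | _ n ih => exact fun E _ _ z hn h S _ _ hS ψ K hy 𝒜 _ _ ρ hz => spl_step (ih _ hn) h hz hS hy

end Cfsg.Lib.Dade
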